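import Cfsg.Agent.H997.PF.Base

/-!
# From a primitive group to a factorization (helper997, for S3522)
-/

set_option autoImplicit false

namespace Cfsg.Agent.H997.PF

open Subgroup MulAction

theorem fac_of_primitive {G : Type*} [Group G] [Finite G] {Ω : Type*} [MulAction G Ω] [FaithfulSMul G Ω]
    (T : Subgroup G) [hN : T.Normal] (hT : IsSimpleGroup T) (hTc : ¬ IsMulCommutative T)
    (hC : Subgroup.centralizer (T : Set G) = ⊥) (hprim : MulAction.IsPreprimitive G Ω) (ω : Ω)
    (φ : G ≃* G) (hφ : MulAction.IsPretransitive ((MulAction.stabilizer G ω).map φ.toMonoidHom) Ω) :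
    Fac T (stabilizer G ω) φ := by
  have htr : IsPretransitive G Ω := hprim.toIsPretransitive
  have hcore : ¬ T ≤ stabilizer G ω := by
    intro hle
    have h1 : T = ⊥ := by
      rw [eq_bot_iff]
      intro t ht
      rw [Subgroup.mem_bot]
      apply FaithfulSMul.eq_of_smul_eq_smul (α := Ω)
      intro a
      obtain ⟨g, rfl⟩ := MulAction.exists_smul_eq G ω a
      have h2 : g⁻¹ * t * g ∈ stabilizer G ω := hle (by simpa using hN.conj_mem t ht g⁻¹)
      have h3 : (g⁻¹ * t * g) • ω = ω := h2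
      rw [mul_smul, mul_smul, inv_smul_eq_iff] at h3
      rw [h3, one_smul]
    exact (Subgroup.nontrivial_iff_ne_bot T).1 hT.toNontrivial h1
  have hnt : Nontrivial Ω := by
    by_contra hcon
    rw [not_nontrivial_iff_subsingleton] at hcon
    exact hcore fun t _ => Subsingleton.elim _ _
  refine ⟨inferInstance, hN, hT, hTc, hC, MulAction.IsPreprimitive.isCoatom_stabilizer_of_isPreprimitive G ω, hcore, fun g => ?_⟩
  -- `φ(A)` transitive: `φ(A) * A = G`
  obtain ⟨⟨b, hb⟩, h1⟩ := MulAction.exists_smul_eq ((stabilizer G ω).map φ.toMonoidHom) (g⁻¹ • ω) ω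
  have h2 : b • g⁻¹ • ω = ω := h1
  obtain ⟨c, hc, rfl⟩ := hb
  have h3 : φ c • g⁻¹ • ω = ω := h2
  refine ⟨g * (φ c)⁻¹, ?_, c, hc, by simp⟩
  show (g * (φ c)⁻¹) • ω = ω
  rw [mul_smul]
  rw [← mul_smul] at h3
  -- `φ c * g⁻¹` fixes `ω`, so does its inverse
  have h5 : (φ c * g⁻¹)⁻¹ • ω = ω := by
    rw [inv_smul_eq_iff]; exact h3.symm
  rw [← mul_smul]
  rwa [mul_inv_rev, inv_inv] at h5

end Cfsg.Agent.H997.PF
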